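import Cfsg.Agent.H656.LB.Sel
import Mathlib.Data.Nat.Choose.Sum
import Mathlib.Order.Interval.Finset.Defs
import Mathlib.Data.Finset.Interval

/-!
# S4879, row E8: members and duals together (helper656)

`m : Finset (Fin 8) → ℂ` (the multiplicities of a constituent in all the `1_{P_J}`), `alt m J = Σ_{K ⊆ J} (-1)^|K| m K` (the dual).

* `alt_alt`;
* `J10`, `J5`, `JY`: the sets of nodes;
* `li_ten` : six members and their six duals are independent on the `K` contained in one of the `J10 k`;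
* `li_five` : five members and six duals are independent on the `J5 k`, `JY k`;
* `exists_minor` : linearly independent vectors have a nonzero minor.
-/

set_option autoImplicit false

namespace Cfsg.Agent.H656.LB

/-- alternating sum over the subsets -/
noncomputable def alt (m : Finset (Fin 8) → ℂ) (J : Finset (Fin 8)) : ℂ := ∑ K ∈ J.powerset, (-1) ^ K.card * m K

theorem sum_Icc_neg_one (L J : Finset (Fin 8)) (h : L ⊆ J) :
    ∑ K ∈ Finset.Icc L J, (-1 : ℂ) ^ K.card = if L = J then (-1) ^ L.card else 0 := by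
  rw [Finset.Icc_eq_image_powerset h, Finset.sum_image]
  · have h1 : ∀ S ∈ (J \ L).powerset, (-1 : ℂ) ^ (L ∪ S).card = (-1) ^ L.card * (((-1) ^ S.card : ℤ) : ℂ) := by
      intro S hS
      rw [Finset.mem_powerset] at hS
      have h2 : Disjoint L S := by
        rw [Finset.disjoint_left]
        intro a ha hb
        exact (Finset.mem_sdiff.1 (hS hb)).2 ha
      rw [Finset.card_union_of_disjoint h2, pow_add]
      push_cast
      rfl
    rw [Finset.sum_congr rfl h1, ← Finset.mul_sum, ← Int.cast_sum, Finset.sum_powerset_neg_one_pow_card]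
    have h3 : J \ L = ∅ ↔ L = J := by
      rw [Finset.sdiff_eq_empty_iff_subset]
      exact ⟨fun h' => Finset.Subset.antisymm h h', fun h' => h' ▸ Finset.Subset.refl _⟩
    by_cases h4 : L = J
    · rw [if_pos h4, if_pos (h3.2 h4)]
      simp
    · rw [if_neg h4, if_neg fun h5 => h4 (h3.1 h5)]
      simp
  · intro S hS S' hS' hSS
    rw [Finset.mem_coe, Finset.mem_powerset] at hS hS'
    change L ∪ S = L ∪ S' at hSS
    ext a
    constructor
    · intro ha
      have h5 : a ∈ L ∪ S' := hSS ▸ Finset.mem_union_right _ ha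
      rcases Finset.mem_union.1 h5 with h6 | h6
      · exact absurd h6 (Finset.mem_sdiff.1 (hS ha)).2
      · exact h6
    · intro ha
      have h5 : a ∈ L ∪ S := hSS ▸ Finset.mem_union_right _ ha
      rcases Finset.mem_union.1 h5 with h6 | h6
      · exact absurd h6 (Finset.mem_sdiff.1 (hS' ha)).2
      · exact h6

theorem alt_alt (m : Finset (Fin 8) → ℂ) (J : Finset (Fin 8)) : alt (alt m) J = m J := by
  unfold alt
  have h1 : ∀ K : Finset (Fin 8), (-1 : ℂ) ^ K.card * ∑ L ∈ K.powerset, (-1) ^ L.card * m L =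
      ∑ L ∈ K.powerset, (-1 : ℂ) ^ K.card * ((-1) ^ L.card * m L) := fun K => Finset.mul_sum _ _ _
  rw [Finset.sum_congr rfl fun K _ => h1 K]
  rw [Finset.sum_comm' (s' := fun L => Finset.Icc L J) (t' := J.powerset)]
  · have h2 : ∀ L ∈ J.powerset, ∑ K ∈ Finset.Icc L J, (-1 : ℂ) ^ K.card * ((-1) ^ L.card * m L) =
        if L = J then m J else 0 := by
      intro L hL
      rw [← Finset.sum_mul, sum_Icc_neg_one L J (Finset.mem_powerset.1 hL)]
      by_cases h3 : L = J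
      · rw [if_pos h3, if_pos h3, h3, ← mul_assoc, ← mul_pow]
        simp
      · rw [if_neg h3, if_neg h3, zero_mul]
    rw [Finset.sum_congr rfl h2, Finset.sum_ite_eq_of_mem' _ _ _ (Finset.mem_powerset_self J)]
  · intro K L
    rw [Finset.mem_powerset, Finset.mem_powerset, Finset.mem_powerset, Finset.mem_Icc]
    constructor
    · rintro ⟨h3, h4⟩
      exact ⟨⟨h4, h3⟩, h4.trans h3⟩
    · rintro ⟨⟨h4, h3⟩, -⟩
      exact ⟨h3, h4⟩

/-- A7, E6, A6A1, A4A2A1, D4A2, A4A1 -/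
def J10 : Fin 6 → Finset (Fin 8) :=
  ![{0, 2, 3, 4, 5, 6, 7}, {0, 1, 2, 3, 4, 5}, {0, 1, 3, 4, 5, 6, 7}, {0, 1, 2, 4, 5, 6, 7}, {1, 2, 3, 4, 6, 7},
    {0, 1, 2, 3, 5}]

/-- D4, A3+2A1, A3A2, A3A2A1, D4A2 -/
def J5 : Fin 5 → Finset (Fin 8) :=
  ![{1, 2, 3, 4}, {0, 1, 3, 4, 6}, {0, 2, 3, 5, 6}, {0, 1, 2, 4, 5, 6}, {1, 2, 3, 4, 6, 7}]

/-- ∅, A1, 2A1, A2, 3A1, A2+2A1, 4A1 -/
def JY : Fin 7 → Finset (Fin 8) :=
  ![∅, {0}, {0, 1}, {0, 2}, {0, 1, 4}, {0, 1, 2, 4}, {0, 1, 4, 6}]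

/-- the values at the sets `K` contained in one of the `J10 k`, and the alternating sums -/
noncomputable def lin10 : ({K : Finset (Fin 8) // ∃ k, K ⊆ J10 k} → ℂ) →ₗ[ℂ] (Fin 6 ⊕ Fin 6 → ℂ) where
  toFun f := Sum.elim (fun k => f ⟨J10 k, k, Finset.Subset.refl _⟩)
    (fun k => ∑ K ∈ (J10 k).powerset.attach, (-1) ^ K.1.card * f ⟨K.1, k, Finset.mem_powerset.1 K.2⟩)
  map_add' f g := by
    ext (k | k)
    · rfl
    · simp only [Sum.elim_inr, Pi.add_apply]
      rw [← Finset.sum_add_distrib]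
      exact Finset.sum_congr rfl fun K _ => mul_add _ _ _
  map_smul' c f := by
    ext (k | k)
    · rfl
    · simp only [Sum.elim_inr, Pi.smul_apply, smul_eq_mul, RingHom.id_apply]
      rw [Finset.mul_sum]
      exact Finset.sum_congr rfl fun K _ => mul_left_comm _ _ _

theorem lin10_inr (m : Finset (Fin 8) → ℂ) (k : Fin 6) : lin10 (fun K => m K.1) (Sum.inr k) = alt m (J10 k) := by
  change ∑ K ∈ (J10 k).powerset.attach, (-1 : ℂ) ^ K.1.card * m K.1 = _
  exact Finset.sum_attach _ fun K => (-1 : ℂ) ^ K.card * m K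

theorem li_ten (m : Fin 6 → Finset (Fin 8) → ℂ) (s : Fin 6 → Fin 13) (hs : Function.Injective s) (h0 : s 0 = 0)
    (h1 : 1 ≤ (s 1 : ℕ) ∧ (s 1 : ℕ) ≤ 4) (h2 : 1 ≤ (s 2 : ℕ) ∧ (s 2 : ℕ) ≤ 4) (h3 : 5 ≤ (s 3 : ℕ)) (h4 : 5 ≤ (s 4 : ℕ))
    (h5 : 5 ≤ (s 5 : ℕ)) (hx : ∀ i k, m i (J10 k) = (X10 (s i) k : ℂ)) (hy : ∀ i k, alt (m i) (J10 k) = 0) :
    LinearIndependent ℂ fun (i : Fin 6 ⊕ Fin 6) => fun K : {K : Finset (Fin 8) // ∃ k, K ⊆ J10 k} =>
      (Sum.elim m (fun i => alt (m i)) i) K.1 := by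
  have hX := li10 s hs h0 h1 h2 h3 h4 h5
  refine LinearIndependent.of_comp lin10 ?_
  refine li_tri hX hX ?_ ?_ ?_
  · intro i k
    exact hx i k
  · intro i k
    exact hy i k
  · intro i k
    change lin10 (fun K => alt (m i) K.1) (Sum.inr k) = _
    rw [lin10_inr, alt_alt, hx]

theorem li_five (m : Fin 6 → Finset (Fin 8) → ℂ) (s : Fin 6 → Fin 13) (hs : Function.Injective s) (h0 : s 0 = 0)
    (h1 : 1 ≤ (s 1 : ℕ) ∧ (s 1 : ℕ) ≤ 4) (h2 : 1 ≤ (s 2 : ℕ) ∧ (s 2 : ℕ) ≤ 4) (h3 : 1 ≤ (s 3 : ℕ) ∧ (s 3 : ℕ) ≤ 4)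
    (h4 : 5 ≤ (s 4 : ℕ)) (h5 : 5 ≤ (s 5 : ℕ)) (hx : ∀ i k, m i (J5 k) = (X5 (s i) k : ℂ))
    (hy : ∀ i k, alt (m i) (J5 k) = 0) (hY : ∀ i k, alt (m i) (JY k) = (Y5 (s i) k : ℂ)) :
    LinearIndependent ℂ fun (i : Fin 5 ⊕ Fin 6) => fun k : Fin 5 ⊕ Fin 7 =>
      (Sum.elim (fun i : Fin 5 => m i.castSucc) (fun i => alt (m i)) i) (Sum.elim J5 JY k) := by
  have hX := li5 (fun i : Fin 5 => s i.castSucc) (fun i j h => Fin.castSucc_injective _ (hs h)) h0 h1 h2 h3 h4
  have hYY := liY s hs h0 h1 h2 h3 h4 h5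
  refine li_tri hX hYY ?_ ?_ ?_
  · intro i k
    exact hx _ k
  · intro i k
    exact hy i k
  · intro i k
    exact hY i k

/-- Linearly independent vectors have a nonzero maximal minor. -/
theorem exists_minor {κ : Type*} [Finite κ] {n : ℕ} (v : Fin n → κ → ℂ) (hv : LinearIndependent ℂ v) :
    ∃ g : Fin n → κ, (Matrix.of fun i j => v j (g i)).det ≠ 0 := by
  classical
  have := Fintype.ofFinite κ
  let A : Matrix (Fin n) κ ℂ := Matrix.of v
  have h1 : A.rank = n := by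
    have h2 : LinearIndependent ℂ A.row := hv
    rw [LinearIndependent.rank_matrix h2, Fintype.card_fin]
  have h3 : Module.finrank ℂ (Submodule.span ℂ (Set.range A.col)) = n := by
    rw [← Matrix.rank_eq_finrank_span_cols, h1]
  obtain ⟨κ', a, ha, hspan, hli⟩ := exists_linearIndependent' ℂ A.col
  have := Fintype.ofInjective a ha
  have h4 : Fintype.card κ' = n := by
    rw [← h3, ← hspan, finrank_span_eq_card hli]
  let e : Fin n ≃ κ' := (Fintype.equivFinOfCardEq h4).symm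
  refine ⟨fun i => a (e i), ?_⟩
  have h5 : LinearIndependent ℂ (Matrix.of fun i j => v j (a (e i))).row :=
    hli.comp e e.injective
  exact (Matrix.isUnit_iff_isUnit_det _).1 (Matrix.linearIndependent_rows_iff_isUnit.1 h5) |>.ne_zero

end Cfsg.Agent.H656.LB
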