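import Cfsg.Agent.H283.LB.Norm
import Mathlib.Data.ZMod.Basic

/-!
# S4879, tool (T5): certificates from linearly independent multiplicity vectors (helper656)

* `cert_of_li` : `Ψ k` (`k` in any finite type) vanish on the `p`-singular elements, `χ i ∈ B₀`, the vectors
  `([χ i, Ψ k])_k` are linearly independent: `H283.LB.Cert p n M X`, `n` the number of the `χ i`;
* `li_tri` : block triangular families;
* `li_of_chk` : linear independence of integer vectors from an inverse modulo a prime (kernel check on lists).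
-/

set_option autoImplicit false

namespace Cfsg.Agent.H656.LB

open Cfsg
open scoped ComplexConjugate

universe u v

section cert

variable {X : Type v} [Group X] [Fintype X]

theorem classInner_comb {κ : Type*} [Fintype κ] (χ : X → ℂ) (Ψ : κ → X → ℂ) (c : κ → ℂ) :
    classInner χ (fun x => ∑ k, conj (c k) * Ψ k x) = ∑ k, c k * classInner χ (Ψ k) := by
  unfold classInner
  have h1 : ∀ x : X, χ x * conj (∑ k, conj (c k) * Ψ k x) = ∑ k, c k * (χ x * conj (Ψ k x)) := by
    intro x
    rw [map_sum, Finset.mul_sum]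
    refine Finset.sum_congr rfl fun k _ => ?_
    rw [map_mul, Complex.conj_conj]
    ring
  rw [Finset.sum_congr rfl fun x _ => h1 x, Finset.sum_comm, Finset.mul_sum]
  refine Finset.sum_congr rfl fun k _ => ?_
  rw [← Finset.mul_sum]
  ring

/-- **Certificate from linearly independent multiplicity vectors.** -/
theorem cert_of_li {p : ℕ} {M : Ideal AlgInt} {ι κ : Type*} [Fintype ι] [Fintype κ] (Ψ : κ → X → ℂ)
    (χ : ι → IrrCharacter X) (h1 : ∀ k x, p ∣ orderOf x → Ψ k x = 0) (h2 : ∀ i, χ i ∈ principalBlock M X)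
    (hli : LinearIndependent ℂ fun i => fun k => classInner (χ i : X → ℂ) (Ψ k))
    (h3 : (∀ (φ : MulAut X) i x, (χ i : X → ℂ) (φ x) = (χ i : X → ℂ) x) ∨
      ∀ (φ : MulAut X) k x, Ψ k (φ x) = Ψ k x) : H283.LB.Cert p (Fintype.card ι) M X := by
  classical
  let v : ι → κ → ℂ := fun i k => classInner (χ i : X → ℂ) (Ψ k)
  let f : (ι → ℂ) →ₗ[ℂ] (κ → ℂ) := Fintype.linearCombination ℂ v
  have hf : LinearMap.ker f = ⊥ := by
    rw [LinearMap.ker_eq_bot]
    exact linearIndependent_iff_injective_fintypeLinearCombination.1 hli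
  obtain ⟨g, hg⟩ := f.exists_leftInverse_of_injective hf
  let B : ι → κ → ℂ := fun j k => g (Pi.single k 1) j
  have hgx : ∀ (x : κ → ℂ) (j : ι), g x j = ∑ k, B j k * x k := by
    intro x j
    conv_lhs => rw [pi_eq_sum_univ' x]
    rw [map_sum, Finset.sum_apply]
    refine Finset.sum_congr rfl fun k _ => ?_
    rw [map_smul, Pi.smul_apply, smul_eq_mul, mul_comm]
  have hB : ∀ i j, ∑ k, B j k * v i k = if i = j then 1 else 0 := by
    intro i j
    have h4 : f (Pi.single i 1) = v i := by
      simp [f, Fintype.linearCombination_apply_single]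
    have h5 : g (f (Pi.single i 1)) = Pi.single i 1 := LinearMap.congr_fun hg _
    rw [← hgx, ← h4, h5, Pi.single_apply]
    simp [eq_comm]
  let e := Fintype.equivFin ι
  refine ⟨fun j x => ∑ k, conj (B (e.symm j) k) * Ψ k x, fun i => χ (e.symm i), ?_, fun i => h2 _, ?_, ?_⟩
  · intro i x hx
    refine Finset.sum_eq_zero fun k _ => ?_
    rw [h1 k x hx, mul_zero]
  · have h6 : (Matrix.of fun i j => classInner (χ (e.symm j) : X → ℂ)
        (fun x => ∑ k, conj (B (e.symm i) k) * Ψ k x)) = (1 : Matrix (Fin (Fintype.card ι)) (Fin (Fintype.card ι)) ℂ) := by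
      ext i j
      rw [Matrix.of_apply, classInner_comb, Matrix.one_apply]
      refine (hB (e.symm j) (e.symm i)).trans ?_
      simp [eq_comm]
    rw [h6, Matrix.det_one]
    exact one_ne_zero
  · rcases h3 with h3 | h3
    · exact Or.inl fun φ i x => h3 φ _ x
    · refine Or.inr fun φ i x => ?_
      refine Finset.sum_congr rfl fun k _ => ?_
      rw [h3 φ k x]

end cert

/-- Block triangular families of vectors. -/
theorem li_tri {ι ι' κ κ' : Type*} [Fintype ι] [Fintype ι'] {x : ι → κ → ℂ} {y : ι' → κ' → ℂ}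
    (hx : LinearIndependent ℂ x) (hy : LinearIndependent ℂ y) {w : ι ⊕ ι' → κ ⊕ κ' → ℂ}
    (h11 : ∀ i k, w (Sum.inl i) (Sum.inl k) = x i k)
    (h21 : ∀ i k, w (Sum.inr i) (Sum.inl k) = 0) (h22 : ∀ i k, w (Sum.inr i) (Sum.inr k) = y i k) :
    LinearIndependent ℂ w := by
  rw [Fintype.linearIndependent_iff] at hx hy ⊢
  intro g hg
  have h1 : ∀ i, g (Sum.inl i) = 0 := by
    apply hx (fun i => g (Sum.inl i))
    ext k
    have h2 := congrFun hg (Sum.inl k)
    rw [Fintype.sum_sum_type, Pi.add_apply, Finset.sum_apply, Finset.sum_apply] at h2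
    rw [Finset.sum_apply]
    have h3 : ∑ c, (g (Sum.inr c) • w (Sum.inr c)) (Sum.inl k) = 0 := by
      refine Finset.sum_eq_zero fun c _ => ?_
      rw [Pi.smul_apply, h21, smul_zero]
    rw [h3, add_zero] at h2
    refine Eq.trans ?_ h2
    refine Finset.sum_congr rfl fun c _ => ?_
    rw [Pi.smul_apply, Pi.smul_apply, h11]
  have h4 : ∀ i, g (Sum.inr i) = 0 := by
    apply hy (fun i => g (Sum.inr i))
    ext k
    have h2 := congrFun hg (Sum.inr k)
    rw [Fintype.sum_sum_type, Pi.add_apply, Finset.sum_apply, Finset.sum_apply] at h2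
    rw [Finset.sum_apply]
    have h3 : ∑ c, (g (Sum.inl c) • w (Sum.inl c)) (Sum.inr k) = 0 := by
      refine Finset.sum_eq_zero fun c _ => ?_
      rw [h1, zero_smul, Pi.zero_apply]
    rw [h3, zero_add] at h2
    refine Eq.trans ?_ h2
    refine Finset.sum_congr rfl fun c _ => ?_
    rw [Pi.smul_apply, Pi.smul_apply, h22]
  rintro (i | i)
  · exact h1 i
  · exact h4 i

/-! ### Kernel check -/

/-- dot product of lists -/
def dot : List ℤ → List ℤ → ℤ
  | a :: u, b :: v => a * b + dot u v
  | _, _ => 0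

theorem dot_ofFn {m : ℕ} (f : Fin m → ℤ) (c : List ℤ) : dot (List.ofFn f) c = ∑ k, f k * c.getD k 0 := by
  induction m generalizing c with
  | zero => simp [dot]
  | succ m ih =>
    rw [List.ofFn_succ, Fin.sum_univ_succ]
    cases c with
    | nil => simp [dot]
    | cons b c =>
      rw [dot, ih]
      simp

/-- `dot (f i) (cols j) ≡ δ_ij` modulo a prime: the vectors `f i` are linearly independent. -/
theorem li_of_chk (l : ℕ) [Fact l.Prime] {n m : ℕ} (f : Fin n → Fin m → ℤ) (cols : Fin n → List ℤ)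
    (h : ∀ i j, (dot (List.ofFn (f i)) (cols j) - if i = j then 1 else 0) % (l : ℤ) = 0) :
    LinearIndependent ℂ fun i => fun k => (f i k : ℂ) := by
  classical
  let F : Matrix (Fin n) (Fin m) ℤ := Matrix.of f
  let C : Matrix (Fin m) (Fin n) ℤ := Matrix.of fun k j => (cols j).getD k 0
  have h1 : ∀ i j, ((F * C) i j : ZMod l) = if i = j then 1 else 0 := by
    intro i j
    have h2 := h i j
    rw [dot_ofFn] at h2
    have h3 : (F * C) i j = ∑ k, f i k * (cols j).getD k 0 := rfl
    rw [← h3] at h2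
    have h4 : (((F * C) i j - if i = j then 1 else 0 : ℤ) : ZMod l) = 0 :=
      (ZMod.intCast_zmod_eq_zero_iff_dvd _ _).2 (Int.dvd_of_emod_eq_zero h2)
    split_ifs at h4 ⊢ with hij
    · push_cast at h4
      exact sub_eq_zero.1 h4
    · simpa using h4
  have h5 : (F * C).det ≠ 0 := by
    intro h6
    have h7 : ((F * C).map (Int.castRingHom (ZMod l))).det = 0 := by
      rw [← RingHom.mapMatrix_apply, ← RingHom.map_det, h6, map_zero]
    have h8 : (F * C).map (Int.castRingHom (ZMod l)) = 1 := by
      ext i j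
      rw [Matrix.map_apply, Matrix.one_apply]
      exact h1 i j
    rw [h8, Matrix.det_one] at h7
    exact one_ne_zero h7
  rw [Fintype.linearIndependent_iff]
  intro g hg
  have h9 : Matrix.vecMul g (F.map (Int.castRingHom ℂ)) = 0 := by
    ext k
    have h10 := congrFun hg k
    rw [Finset.sum_apply] at h10
    rw [Pi.zero_apply] at h10 ⊢
    rw [← h10]
    rfl
  have h11 : Matrix.vecMul g ((F * C).map (Int.castRingHom ℂ)) = 0 := by
    rw [Matrix.map_mul, ← Matrix.vecMul_vecMul, h9, Matrix.zero_vecMul]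
  have h12 : ((F * C).map (Int.castRingHom ℂ)).det ≠ 0 := by
    rw [← RingHom.mapMatrix_apply, ← RingHom.map_det]
    change (((F * C).det : ℤ) : ℂ) ≠ 0
    exact_mod_cast h5
  intro i
  exact congrFun (Matrix.eq_zero_of_vecMul_eq_zero h12 h11) i

end Cfsg.Agent.H656.LB
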