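import Cfsg.Agent.H656.LB.Tab
import Mathlib.Data.Finset.Sort

/-!
# S4879, row E8: independence of the multiplicity vectors for all choices (helper656)

* `li10` : `s : Fin 6 → Fin 13` injective, `s 0 = 0`, `s 1, s 2 ∈ {1,…,4}`, `s 3, s 4, s 5 ≥ 5`: the vectors `X10 (s i)` are
  independent;
* `li5`, `liY` : `s : Fin 6 → Fin 13` injective, `s 0 = 0`, `s 1, s 2, s 3 ∈ {1,…,4}`, `s 4, s 5 ≥ 5`: the vectors
  `X5 (s i)`, `i ≤ 4`, are independent, the vectors `Y5 (s i)`, `i ≤ 5`, are independent.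
-/

set_option autoImplicit false

namespace Cfsg.Agent.H656.LB

theorem exists_sorted {r : ℕ} (f : Fin r → Fin 13) (hf : Function.Injective f) :
    ∃ g : Fin r → Fin 13, StrictMono g ∧ (∀ i, ∃ j, g i = f j) ∧ ∀ i, ∃ j, g j = f i := by
  classical
  have hc : (Finset.univ.image f).card = r := by
    rw [Finset.card_image_of_injective _ hf, Finset.card_univ, Fintype.card_fin]
  refine ⟨(Finset.univ.image f).orderEmbOfFin hc, ((Finset.univ.image f).orderEmbOfFin hc).strictMono, ?_, ?_⟩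
  · intro i
    have h1 := Finset.orderEmbOfFin_mem (Finset.univ.image f) hc i
    obtain ⟨j, -, hj⟩ := Finset.mem_image.1 h1
    exact ⟨j, hj.symm⟩
  · intro i
    have h1 : f i ∈ Set.range ((Finset.univ.image f).orderEmbOfFin hc) := by
      rw [Finset.range_orderEmbOfFin]
      exact Finset.mem_coe.2 (Finset.mem_image_of_mem f (Finset.mem_univ i))
    exact h1

theorem li_of_range {ι : Type*} {n : ℕ} {V : Type*} [AddCommGroup V] [Module ℂ V] (v : Fin 13 → V) (s : ι → Fin 13)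
    (t : Fin n → Fin 13) (hs : Function.Injective s) (h : ∀ i, ∃ j, t j = s i)
    (ht : LinearIndependent ℂ fun j => v (t j)) : LinearIndependent ℂ fun i => v (s i) := by
  choose σ hσ using h
  have h1 : Function.Injective σ := by
    intro i j hij
    apply hs
    rw [← hσ, ← hσ, hij]
  have h2 : (fun i => v (s i)) = (fun j => v (t j)) ∘ σ := by
    funext i
    exact congrArg v (hσ i).symm
  rw [h2]
  exact ht.comp σ h1

theorem li_of_chkL (l : ℕ) [Fact l.Prime] {n m : ℕ} (L : List (List ℤ)) (f : Fin 13 → Fin m → ℤ)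
    (hf : ∀ i : Fin 13, List.ofFn (f i) = L.getD i []) (t : Fin n → Fin 13) (tl : List ℕ)
    (hl : tl = List.ofFn fun i => (t i : ℕ)) (N : ℕ) (h : chk l m L tl N = true) :
    LinearIndependent ℂ fun i => fun k => (f (t i) k : ℂ) := by
  refine li_of_chk l (fun i => f (t i)) (fun j => col m N j) fun i j => ?_
  unfold chk at h
  rw [List.all_eq_true] at h
  have hlen : tl.length = n := by rw [hl, List.length_ofFn]
  have h1 := h i (List.mem_range.2 (by rw [hlen]; exact i.2))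
  rw [List.all_eq_true] at h1
  have h2 := h1 j (List.mem_range.2 (by rw [hlen]; exact j.2))
  rw [beq_iff_eq] at h2
  have h3 : tl.getD i 0 = (t i : ℕ) := by
    rw [hl, List.getD_eq_getElem?_getD, List.getElem?_ofFn]
    simp
  rw [h3] at h2
  rw [hf]
  convert h2 using 3
  simp [Fin.ext_iff]

instance : Fact (Nat.Prime 43) := ⟨by norm_num⟩

instance : Fact (Nat.Prime 11) := ⟨by norm_num⟩

theorem mem8 {a : Fin 13} (h1 : 1 ≤ (a : ℕ)) (h2 : (a : ℕ) ≤ 4) : (a : ℕ) ∈ [1, 2, 3, 4] := by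
  simp only [List.mem_cons, List.not_mem_nil, or_false]
  omega

theorem mem7 {a : Fin 13} (h1 : 5 ≤ (a : ℕ)) : (a : ℕ) ∈ [5, 6, 7, 8, 9, 10, 11, 12] := by
  have := a.2
  simp only [List.mem_cons, List.not_mem_nil, or_false]
  omega

theorem or_of {a b : ℕ} {x : Bool} (hab : a < b) (h : (!(decide (a < b)) || x) = true) : x = true := by
  simpa [hab] using h

theorem li10_sorted (g : Fin 2 → Fin 13) (k : Fin 3 → Fin 13) (hg : StrictMono g) (hk : StrictMono k)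
    (hg8 : ∀ i, 1 ≤ (g i : ℕ) ∧ (g i : ℕ) ≤ 4) (hk7 : ∀ i, 5 ≤ (k i : ℕ)) :
    LinearIndependent ℂ fun i : Fin 6 => fun j => (X10 ((![0, g 0, g 1, k 0, k 1, k 2] : Fin 6 → Fin 13) i) j : ℂ) := by
  have h := ok10_true
  unfold ok10 at h
  have h1 := List.all_eq_true.1 h _ (mem8 (hg8 0).1 (hg8 0).2)
  have h2 := or_of (hg (show (0 : Fin 2) < 1 by decide)) (List.all_eq_true.1 h1 _ (mem8 (hg8 1).1 (hg8 1).2))
  have h3 := List.all_eq_true.1 h2 _ (mem7 (hk7 0))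
  have h4 := or_of (hk (show (0 : Fin 3) < 1 by decide)) (List.all_eq_true.1 h3 _ (mem7 (hk7 1)))
  have h5 := or_of (hk (show (1 : Fin 3) < 2 by decide)) (List.all_eq_true.1 h4 _ (mem7 (hk7 2)))
  exact li_of_chkL 43 X10L X10 X10_row _ _ (by simp [List.ofFn_succ]) _ h5

theorem li10 (s : Fin 6 → Fin 13) (hs : Function.Injective s) (h0 : s 0 = 0)
    (h1 : 1 ≤ (s 1 : ℕ) ∧ (s 1 : ℕ) ≤ 4) (h2 : 1 ≤ (s 2 : ℕ) ∧ (s 2 : ℕ) ≤ 4) (h3 : 5 ≤ (s 3 : ℕ)) (h4 : 5 ≤ (s 4 : ℕ))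
    (h5 : 5 ≤ (s 5 : ℕ)) : LinearIndependent ℂ fun i => fun k => (X10 (s i) k : ℂ) := by
  obtain ⟨g, hg, hg1, hg2⟩ := exists_sorted (![s 1, s 2] : Fin 2 → Fin 13) (by
    intro i j hij
    fin_cases i <;> fin_cases j <;> first | rfl | exact absurd (hs hij) (by decide))
  obtain ⟨k, hk, hk1, hk2⟩ := exists_sorted (![s 3, s 4, s 5] : Fin 3 → Fin 13) (by
    intro i j hij
    fin_cases i <;> fin_cases j <;> first | rfl | exact absurd (hs hij) (by decide))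
  have h6 := li10_sorted g k hg hk (fun i => by
    obtain ⟨j, hj⟩ := hg1 i
    rw [hj]
    fin_cases j
    · exact h1
    · exact h2) (fun i => by
    obtain ⟨j, hj⟩ := hk1 i
    rw [hj]
    fin_cases j
    · exact h3
    · exact h4
    · exact h5)
  refine li_of_range (fun i k => (X10 i k : ℂ)) s _ hs (fun i => ?_) h6
  have hgg : ∀ i : Fin 2, ∃ j : Fin 6, (![0, g 0, g 1, k 0, k 1, k 2] : Fin 6 → Fin 13) j = g i := by
    intro i
    fin_cases i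
    · exact ⟨1, rfl⟩
    · exact ⟨2, rfl⟩
  have hkk : ∀ i : Fin 3, ∃ j : Fin 6, (![0, g 0, g 1, k 0, k 1, k 2] : Fin 6 → Fin 13) j = k i := by
    intro i
    fin_cases i
    · exact ⟨3, rfl⟩
    · exact ⟨4, rfl⟩
    · exact ⟨5, rfl⟩
  have hgs : ∀ i : Fin 2, ∃ j : Fin 6, (![0, g 0, g 1, k 0, k 1, k 2] : Fin 6 → Fin 13) j = (![s 1, s 2] : Fin 2 → Fin 13) i := by
    intro i
    obtain ⟨j, hj⟩ := hg2 i
    obtain ⟨j', hj'⟩ := hgg j
    exact ⟨j', hj'.trans hj⟩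
  have hks : ∀ i : Fin 3, ∃ j : Fin 6, (![0, g 0, g 1, k 0, k 1, k 2] : Fin 6 → Fin 13) j =
      (![s 3, s 4, s 5] : Fin 3 → Fin 13) i := by
    intro i
    obtain ⟨j, hj⟩ := hk2 i
    obtain ⟨j', hj'⟩ := hkk j
    exact ⟨j', hj'.trans hj⟩
  fin_cases i
  · exact ⟨0, h0.symm⟩
  · exact hgs 0
  · exact hgs 1
  · exact hks 0
  · exact hks 1
  · exact hks 2

theorem li5_sorted (g : Fin 3 → Fin 13) (k : Fin 1 → Fin 13) (hg : StrictMono g)
    (hg8 : ∀ i, 1 ≤ (g i : ℕ) ∧ (g i : ℕ) ≤ 4) (hk7 : ∀ i, 5 ≤ (k i : ℕ)) :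
    LinearIndependent ℂ fun i : Fin 5 => fun j => (X5 ((![0, g 0, g 1, g 2, k 0] : Fin 5 → Fin 13) i) j : ℂ) := by
  have h := ok5_true
  unfold ok5 at h
  have h1 := List.all_eq_true.1 h _ (mem8 (hg8 0).1 (hg8 0).2)
  have h2 := or_of (hg (show (0 : Fin 3) < 1 by decide)) (List.all_eq_true.1 h1 _ (mem8 (hg8 1).1 (hg8 1).2))
  have h3 := or_of (hg (show (1 : Fin 3) < 2 by decide)) (List.all_eq_true.1 h2 _ (mem8 (hg8 2).1 (hg8 2).2))
  have h4 := List.all_eq_true.1 h3 _ (mem7 (hk7 0))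
  exact li_of_chkL 11 X5L X5 X5_row _ _ (by simp [List.ofFn_succ]) _ h4

theorem liY_sorted (g : Fin 3 → Fin 13) (k : Fin 2 → Fin 13) (hg : StrictMono g) (hk : StrictMono k)
    (hg8 : ∀ i, 1 ≤ (g i : ℕ) ∧ (g i : ℕ) ≤ 4) (hk7 : ∀ i, 5 ≤ (k i : ℕ)) :
    LinearIndependent ℂ fun i : Fin 6 => fun j => (Y5 ((![0, g 0, g 1, g 2, k 0, k 1] : Fin 6 → Fin 13) i) j : ℂ) := by
  have h := okY_true
  unfold okY at h
  have h1 := List.all_eq_true.1 h _ (mem8 (hg8 0).1 (hg8 0).2)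
  have h2 := or_of (hg (show (0 : Fin 3) < 1 by decide)) (List.all_eq_true.1 h1 _ (mem8 (hg8 1).1 (hg8 1).2))
  have h3 := or_of (hg (show (1 : Fin 3) < 2 by decide)) (List.all_eq_true.1 h2 _ (mem8 (hg8 2).1 (hg8 2).2))
  have h4 := List.all_eq_true.1 h3 _ (mem7 (hk7 0))
  have h5 := or_of (hk (show (0 : Fin 2) < 1 by decide)) (List.all_eq_true.1 h4 _ (mem7 (hk7 1)))
  exact li_of_chkL 11 Y5L Y5 Y5_row _ _ (by simp [List.ofFn_succ]) _ h5

theorem li5 (s : Fin 5 → Fin 13) (hs : Function.Injective s) (h0 : s 0 = 0)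
    (h1 : 1 ≤ (s 1 : ℕ) ∧ (s 1 : ℕ) ≤ 4) (h2 : 1 ≤ (s 2 : ℕ) ∧ (s 2 : ℕ) ≤ 4) (h3 : 1 ≤ (s 3 : ℕ) ∧ (s 3 : ℕ) ≤ 4)
    (h4 : 5 ≤ (s 4 : ℕ)) : LinearIndependent ℂ fun i => fun k => (X5 (s i) k : ℂ) := by
  obtain ⟨g, hg, hg1, hg2⟩ := exists_sorted (![s 1, s 2, s 3] : Fin 3 → Fin 13) (by
    intro i j hij
    fin_cases i <;> fin_cases j <;> first | rfl | exact absurd (hs hij) (by decide))
  have h6 := li5_sorted g ![s 4] hg (fun i => by
    obtain ⟨j, hj⟩ := hg1 i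
    rw [hj]
    fin_cases j
    · exact h1
    · exact h2
    · exact h3) (fun i => by
    fin_cases i
    exact h4)
  refine li_of_range (fun i k => (X5 i k : ℂ)) s _ hs (fun i => ?_) h6
  have hgg : ∀ i : Fin 3, ∃ j : Fin 5, (![0, g 0, g 1, g 2, (![s 4] : Fin 1 → Fin 13) 0] : Fin 5 → Fin 13) j = g i := by
    intro i
    fin_cases i
    · exact ⟨1, rfl⟩
    · exact ⟨2, rfl⟩
    · exact ⟨3, rfl⟩
  have hgs : ∀ i : Fin 3, ∃ j : Fin 5, (![0, g 0, g 1, g 2, (![s 4] : Fin 1 → Fin 13) 0] : Fin 5 → Fin 13) j =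
      (![s 1, s 2, s 3] : Fin 3 → Fin 13) i := by
    intro i
    obtain ⟨j, hj⟩ := hg2 i
    obtain ⟨j', hj'⟩ := hgg j
    exact ⟨j', hj'.trans hj⟩
  fin_cases i
  · exact ⟨0, h0.symm⟩
  · exact hgs 0
  · exact hgs 1
  · exact hgs 2
  · exact ⟨4, rfl⟩

theorem liY (s : Fin 6 → Fin 13) (hs : Function.Injective s) (h0 : s 0 = 0)
    (h1 : 1 ≤ (s 1 : ℕ) ∧ (s 1 : ℕ) ≤ 4) (h2 : 1 ≤ (s 2 : ℕ) ∧ (s 2 : ℕ) ≤ 4) (h3 : 1 ≤ (s 3 : ℕ) ∧ (s 3 : ℕ) ≤ 4)
    (h4 : 5 ≤ (s 4 : ℕ)) (h5 : 5 ≤ (s 5 : ℕ)) : LinearIndependent ℂ fun i => fun k => (Y5 (s i) k : ℂ) := by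
  obtain ⟨g, hg, hg1, hg2⟩ := exists_sorted (![s 1, s 2, s 3] : Fin 3 → Fin 13) (by
    intro i j hij
    fin_cases i <;> fin_cases j <;> first | rfl | exact absurd (hs hij) (by decide))
  obtain ⟨k, hk, hk1, hk2⟩ := exists_sorted (![s 4, s 5] : Fin 2 → Fin 13) (by
    intro i j hij
    fin_cases i <;> fin_cases j <;> first | rfl | exact absurd (hs hij) (by decide))
  have h6 := liY_sorted g k hg hk (fun i => by
    obtain ⟨j, hj⟩ := hg1 i
    rw [hj]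
    fin_cases j
    · exact h1
    · exact h2
    · exact h3) (fun i => by
    obtain ⟨j, hj⟩ := hk1 i
    rw [hj]
    fin_cases j
    · exact h4
    · exact h5)
  refine li_of_range (fun i k => (Y5 i k : ℂ)) s _ hs (fun i => ?_) h6
  have hgg : ∀ i : Fin 3, ∃ j : Fin 6, (![0, g 0, g 1, g 2, k 0, k 1] : Fin 6 → Fin 13) j = g i := by
    intro i
    fin_cases i
    · exact ⟨1, rfl⟩
    · exact ⟨2, rfl⟩
    · exact ⟨3, rfl⟩
  have hkk : ∀ i : Fin 2, ∃ j : Fin 6, (![0, g 0, g 1, g 2, k 0, k 1] : Fin 6 → Fin 13) j = k i := by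
    intro i
    fin_cases i
    · exact ⟨4, rfl⟩
    · exact ⟨5, rfl⟩
  have hgs : ∀ i : Fin 3, ∃ j : Fin 6, (![0, g 0, g 1, g 2, k 0, k 1] : Fin 6 → Fin 13) j =
      (![s 1, s 2, s 3] : Fin 3 → Fin 13) i := by
    intro i
    obtain ⟨j, hj⟩ := hg2 i
    obtain ⟨j', hj'⟩ := hgg j
    exact ⟨j', hj'.trans hj⟩
  have hks : ∀ i : Fin 2, ∃ j : Fin 6, (![0, g 0, g 1, g 2, k 0, k 1] : Fin 6 → Fin 13) j =
      (![s 4, s 5] : Fin 2 → Fin 13) i := by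
    intro i
    obtain ⟨j, hj⟩ := hk2 i
    obtain ⟨j', hj'⟩ := hkk j
    exact ⟨j', hj'.trans hj⟩
  fin_cases i
  · exact ⟨0, h0.symm⟩
  · exact hgs 0
  · exact hgs 1
  · exact hgs 2
  · exact hks 0
  · exact hks 1

end Cfsg.Agent.H656.LB
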